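import Cfsg.Agent.PCore.Basic
import Cfsg.Prelude.Def_KGroupFacts
set_option autoImplicit false

/-!
`O_{p'}` of the centraliser of an automorphism of prime order: two criteria.
-/

namespace CfsgLib.LocalBalance

variable {K : Type*} [Group K]

/-- A fixed-point subgroup of order prime to `p` gives a non-trivial `p'`-core. -/
theorem core_ne_bot_of_coprime (p : ℕ) (hconj : Function.Injective (MulAut.conj : K →* MulAut K))
    (A : Subgroup (MulAut K)) (hinn : ∀ k : K, MulAut.conj k ∈ A) (x : MulAut K)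
    (hne : ∃ k : K, k ≠ 1 ∧ x k = k)
    (hcop : Nat.Coprime p (Nat.card ↥(MonoidHom.eqLocus x.toMonoidHom (MonoidHom.id K)))) :
    Cfsg.pPrimeCore p ↥(A ⊓ Subgroup.centralizer {x}) ≠ ⊥ := by
  set C := A ⊓ Subgroup.centralizer {x} with hC
  set E := MonoidHom.eqLocus x.toMonoidHom (MonoidHom.id K) with hE
  have hmem : ∀ k ∈ E, MulAut.conj k ∈ C := fun k hk => by
    refine ⟨hinn k, Subgroup.mem_centralizer_singleton_iff.2 (MulEquiv.ext fun y => ?_)⟩
    have hk' : x k = k := hk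
    simp [map_mul, hk']
  let φ : E →* C := (MulAut.conj.comp E.subtype).codRestrict C fun k => hmem k.1 k.2
  have hφ : Function.Injective φ := fun a b h =>
    Subtype.ext (hconj (congrArg Subtype.val h))
  have hcard : Nat.card φ.range = Nat.card E :=
    (Nat.card_congr (MonoidHom.ofInjective hφ).toEquiv).symm
  have hN : φ.range.Normal := by
    refine ⟨?_⟩
    rintro _ ⟨k, rfl⟩ c
    have hc : c.1 * x = x * c.1 := Subgroup.mem_centralizer_singleton_iff.1 c.2.2
    have hk : x k.1 = k.1 := k.2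
    refine ⟨⟨c.1 k.1, ?_⟩, Subtype.ext ?_⟩
    · change x (c.1 k.1) = c.1 k.1
      rw [← MulAut.mul_apply, ← hc, MulAut.mul_apply, hk]
    · change MulAut.conj (c.1 k.1) = c.1 * MulAut.conj k.1 * c.1⁻¹
      exact MulEquiv.ext fun y => by simp
  have hle : φ.range ≤ Cfsg.pPrimeCore p C :=
    CfsgLib.PCore.le_pPrimeCore hN (by rw [hcard]; exact hcop.symm)
  obtain ⟨k, hk1, hk⟩ := hne
  intro hbot
  have h1 : φ ⟨k, hk⟩ ∈ Cfsg.pPrimeCore p C := hle ⟨_, rfl⟩
  rw [hbot, Subgroup.mem_bot] at h1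
  exact hk1 (congrArg Subtype.val (hφ (h1.trans (map_one φ).symm)))

/-- A criterion for a trivial `p'`-core in the centraliser of `x`. -/
theorem core_eq_bot [Finite K] (p : ℕ) [Fact p.Prime] (A : Subgroup (MulAut K)) (x : MulAut K)
    (I R : Subgroup (MulAut K)) (hI : I.Normal) (hRI : R ≤ I)
    (hRA : R ≤ A ⊓ Subgroup.centralizer {x})
    (hcen : ∀ n : MulAut K, (∀ r ∈ R, n * r = r * n) → n ^ p = 1)
    (hnorm : ∀ n ∈ I, n * x = x * n → ∀ r ∈ R, n * r * n⁻¹ ∈ R)
    (hsmall : ∀ M : Subgroup (MulAut K), M ≤ R → (∀ r ∈ R, ∀ y ∈ M, r * y * r⁻¹ ∈ M) →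
      ¬ p ∣ Nat.card M → M = ⊥) :
    Cfsg.pPrimeCore p ↥(A ⊓ Subgroup.centralizer {x}) = ⊥ := by
  haveI : Finite (MulAut K) := Finite.of_injective _ DFunLike.coe_injective
  set C := A ⊓ Subgroup.centralizer {x} with hC
  set N := (Cfsg.pPrimeCore p C).map C.subtype with hN
  have hNn := (CfsgLib.PCore.pPrimeCore_mem p C).1
  have hNC : N ≤ C := Subgroup.map_subtype_le _
  have hNcard : ¬ p ∣ Nat.card N := by
    rw [hN, Subgroup.card_map_of_injective C.subtype_injective]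
    exact CfsgLib.PCore.not_dvd_card_pPrimeCore p C
  have hconj : ∀ c ∈ C, ∀ y ∈ N, c * y * c⁻¹ ∈ N := by
    rintro c hc _ ⟨y, hy, rfl⟩
    refine Subgroup.mem_map.2 ⟨_, hNn.conj_mem y hy ⟨c, hc⟩, ?_⟩
    simp only [map_mul, map_inv, Subgroup.coe_subtype]
  have hone : ∀ n ∈ N, (∀ r ∈ R, n * r = r * n) → n = 1 := by
    intro n hn hc
    rw [← orderOf_eq_one_iff]
    rcases (Nat.dvd_prime (Fact.out : p.Prime)).1 (orderOf_dvd_of_pow_eq_one (hcen n hc)) with h | h
    · exact h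
    · exact absurd (h ▸ Subgroup.orderOf_dvd_natCard N hn) hNcard
  have hM : R ⊓ N = ⊥ := by
    refine hsmall _ inf_le_left ?_ fun hd => hNcard (hd.trans (Subgroup.card_dvd_of_le inf_le_right))
    rintro r hr y ⟨hyR, hyN⟩
    exact ⟨R.mul_mem (R.mul_mem hr hyR) (R.inv_mem hr), hconj r (hRA hr) y hyN⟩
  have hcommN : ∀ n ∈ N, ∀ r ∈ R, n * r * n⁻¹ * r⁻¹ ∈ N := fun n hn r hr => by
    rw [show n * r * n⁻¹ * r⁻¹ = n * (r * n⁻¹ * r⁻¹) by group]
    exact mul_mem hn (hconj r (hRA hr) _ (inv_mem hn))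
  have hNI : ∀ n ∈ N, n ∈ I → n = 1 := fun n hn hnI => hone n hn fun r hr => by
    have h1 : n * r * n⁻¹ * r⁻¹ ∈ R ⊓ N :=
      ⟨R.mul_mem (hnorm n hnI (Subgroup.mem_centralizer_singleton_iff.1 (hNC hn).2) r hr) (R.inv_mem hr),
        hcommN n hn r hr⟩
    rw [hM, Subgroup.mem_bot] at h1
    exact mul_inv_eq_iff_eq_mul.1 (mul_inv_eq_one.1 h1)
  have hNbot : N = ⊥ := by
    rw [Subgroup.eq_bot_iff_forall]
    refine fun n hn => hone n hn fun r hr => ?_
    have h1 : n * r * n⁻¹ * r⁻¹ = 1 :=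
      hNI _ (hcommN n hn r hr) (mul_mem (hI.conj_mem r (hRI hr) n) (inv_mem (hRI hr)))
    exact mul_inv_eq_iff_eq_mul.1 (mul_inv_eq_one.1 h1)
  exact (Subgroup.map_eq_bot_iff_of_injective _ C.subtype_injective).1 hNbot

/-- The fixed points of a conjugate. -/
theorem card_eqLocus_conj (α x : MulAut K) :
    Nat.card ↥(MonoidHom.eqLocus (α * x * α⁻¹).toMonoidHom (MonoidHom.id K)) =
      Nat.card ↥(MonoidHom.eqLocus x.toMonoidHom (MonoidHom.id K)) := by
  refine Nat.card_congr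
    { toFun := fun k => ⟨α.symm k.1, ?_⟩
      invFun := fun k => ⟨α k.1, ?_⟩
      left_inv := fun k => Subtype.ext (α.apply_symm_apply k.1)
      right_inv := fun k => Subtype.ext (α.symm_apply_apply k.1) }
  · have hk : α (x (α.symm k.1)) = k.1 := k.2
    change x (α.symm k.1) = α.symm k.1
    exact α.injective (hk.trans (α.apply_symm_apply k.1).symm)
  · have hk : x k.1 = k.1 := k.2
    change α (x (α.symm (α k.1))) = α k.1
    rw [α.symm_apply_apply, hk]

/-- Transport along conjugation. -/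
theorem core_conj_iff [Finite K] (p : ℕ) (A : Subgroup (MulAut K)) (α x : MulAut K) :
    Cfsg.pPrimeCore p ↥(A.map (MulAut.conj α).toMonoidHom ⊓ Subgroup.centralizer {α * x * α⁻¹}) ≠ ⊥ ↔
      Cfsg.pPrimeCore p ↥(A ⊓ Subgroup.centralizer {x}) ≠ ⊥ := by
  haveI : Finite (MulAut K) := Finite.of_injective _ DFunLike.coe_injective
  have hmap : (A ⊓ Subgroup.centralizer {x}).map (MulAut.conj α).toMonoidHom =
      A.map (MulAut.conj α).toMonoidHom ⊓ Subgroup.centralizer {α * x * α⁻¹} := by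
    rw [Subgroup.map_inf _ _ _ (MulAut.conj α).injective]
    congr 1
    ext y
    rw [Subgroup.mem_map_equiv, Subgroup.mem_centralizer_singleton_iff,
      Subgroup.mem_centralizer_singleton_iff, MulAut.conj_symm_apply]
    constructor
    · intro h
      calc y * (α * x * α⁻¹) = α * ((α⁻¹ * y * α) * x) * α⁻¹ := by group
        _ = _ := by rw [h]; group
    · intro h
      calc α⁻¹ * y * α * x = α⁻¹ * (y * (α * x * α⁻¹)) * α := by group
        _ = _ := by rw [h]; group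
  let e := (Subgroup.equivMapOfInjective (A ⊓ Subgroup.centralizer {x}) (MulAut.conj α).toMonoidHom
    (MulAut.conj α).injective).trans (MulEquiv.subgroupCongr hmap)
  rw [← CfsgLib.PCore.map_pPrimeCore_equiv e, ne_eq, ne_eq,
    Subgroup.map_eq_bot_iff_of_injective _ e.injective]

end CfsgLib.LocalBalance
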