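import Cfsg.Agent.LocalBalance.Core
set_option autoImplicit false

/-!
Fixed points of an automorphism against subgroups of its centraliser.
-/

namespace CfsgLib.LocalBalance

variable {K : Type*} [Group K] [Finite K]

/-- Inner automorphisms centralising `x` come from fixed points. -/
theorem card_dvd_fix (hconj : Function.Injective (MulAut.conj : K →* MulAut K)) (x : MulAut K)
    (R : Subgroup (MulAut K)) (hR : ∀ r ∈ R, ∃ k : K, MulAut.conj k = r)
    (hc : ∀ r ∈ R, r * x = x * r) :
    Nat.card R ∣ Nat.card ↥(MonoidHom.eqLocus x.toMonoidHom (MonoidHom.id K)) := by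
  set E := MonoidHom.eqLocus x.toMonoidHom (MonoidHom.id K) with hE
  have hle : R ≤ E.map (MulAut.conj : K →* MulAut K) := by
    intro r hr
    obtain ⟨k, rfl⟩ := hR r hr
    refine ⟨k, ?_, rfl⟩
    have h1 : MulAut.conj (x k) = MulAut.conj k := by
      have h2 : x * MulAut.conj k * x⁻¹ = MulAut.conj (x k) := MulEquiv.ext fun y => by simp
      rw [← h2, ← hc _ hr, mul_inv_cancel_right]
    exact hconj h1
  have := Subgroup.card_dvd_of_le hle
  rwa [Subgroup.card_map_of_injective hconj] at this

/-- The fixed points embed in any subgroup of inner-diagonal type of the centraliser. -/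
theorem fix_dvd_card (hconj : Function.Injective (MulAut.conj : K →* MulAut K)) (x : MulAut K)
    (I : Subgroup (MulAut K)) (hI : ∀ k : K, MulAut.conj k ∈ I) :
    Nat.card ↥(MonoidHom.eqLocus x.toMonoidHom (MonoidHom.id K)) ∣
      Nat.card ↥(I ⊓ Subgroup.centralizer {x}) := by
  set E := MonoidHom.eqLocus x.toMonoidHom (MonoidHom.id K) with hE
  have hle : E.map (MulAut.conj : K →* MulAut K) ≤ I ⊓ Subgroup.centralizer {x} := by
    rintro _ ⟨k, hk, rfl⟩
    refine ⟨hI k, Subgroup.mem_centralizer_singleton_iff.2 (MulEquiv.ext fun y => ?_)⟩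
    have hk' : x k = k := hk
    simp [map_mul, hk']
  have := Subgroup.card_dvd_of_le hle
  rwa [Subgroup.card_map_of_injective hconj] at this

/-- A nontrivial inner subgroup of the centraliser gives a nontrivial fixed point. -/
theorem exists_fixed (hconj : Function.Injective (MulAut.conj : K →* MulAut K)) (x : MulAut K)
    {r : MulAut K} (hr : r ≠ 1) (hR : ∃ k : K, MulAut.conj k = r) (hc : r * x = x * r) :
    ∃ k : K, k ≠ 1 ∧ x k = k := by
  obtain ⟨k, rfl⟩ := hR
  refine ⟨k, fun h => hr (by rw [h, map_one]), hconj ?_⟩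
  have h2 : x * MulAut.conj k * x⁻¹ = MulAut.conj (x k) := MulEquiv.ext fun y => by simp
  rw [← h2, ← hc, mul_inv_cancel_right]

end CfsgLib.LocalBalance
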