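import Cfsg.Agent.LocalBalance.Rigid
import Cfsg.Agent.LocalBalance.Core
import Cfsg.Agent.Forms.OddNormal
import Cfsg.Agent.Forms.Matrix
import Cfsg.Agent.AutPSp.Balance
import Cfsg.Agent.S0752
set_option autoImplicit false

/-!
Normal subgroups of order prime to `p` in the images of classical groups.
-/

namespace CfsgLib.LocalBalance

open Matrix CfsgLib.Rigid

/-- A group with an injective map onto a normal subgroup of a group without normal subgroups of
odd order has none itself. -/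
theorem no_odd_normal_of_injective {X H : Type*} [Group X] [Finite X] [Group H] [Finite H] (θ : X →* H)
    (hθ : Function.Injective θ) (hn : θ.range.Normal)
    (hH : ∀ N : Subgroup H, N.Normal → Odd (Nat.card N) → N = ⊥)
    (M : Subgroup X) (hM : M.Normal) (hodd : Odd (Nat.card M)) : M = ⊥ := by
  haveI := hn
  haveI : Fact (Nat.Prime 2) := ⟨Nat.prime_two⟩
  haveI := CfsgLib.PCore.pPrimeCore_characteristic 2 θ.range
  have hbot := hH ((Cfsg.pPrimeCore 2 θ.range).map θ.range.subtype) inferInstance (by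
    rw [Subgroup.card_map_of_injective θ.range.subtype_injective, ← Nat.not_even_iff_odd, even_iff_two_dvd]
    exact CfsgLib.PCore.not_dvd_card_pPrimeCore 2 _)
  rw [Subgroup.map_eq_bot_iff_of_injective _ θ.range.subtype_injective] at hbot
  have hr : Function.Injective θ.rangeRestrict := fun a b e => hθ (congrArg Subtype.val e)
  have hle : M.map θ.rangeRestrict ≤ Cfsg.pPrimeCore 2 θ.range := by
    refine CfsgLib.PCore.le_pPrimeCore (hM.map _ θ.rangeRestrict_surjective) ?_
    rw [Subgroup.card_map_of_injective hr]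
    exact hodd.coprime_two_right
  rw [hbot, le_bot_iff, Subgroup.map_eq_bot_iff_of_injective _ hr] at hle
  exact hle

/-- Normal subgroups of odd order of an image with kernel of order at most two. -/
theorem eq_bot_of_odd_image {X G : Type*} [Group X] [Finite X] [Group G] (φ : X →* G)
    (hker : Nat.card φ.ker ∣ 2) (hX : ∀ N : Subgroup X, N.Normal → Odd (Nat.card N) → N = ⊥)
    (M : Subgroup G) (hM : M ≤ φ.range) (hMn : ∀ r ∈ φ.range, ∀ y ∈ M, r * y * r⁻¹ ∈ M)
    (hodd : Odd (Nat.card M)) : M = ⊥ := by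
  set M' := M.comap φ with hM'
  haveI : M'.Normal := ⟨fun y hy s => by
    rw [hM', Subgroup.mem_comap, map_mul, map_mul, map_inv]
    exact hMn _ ⟨s, rfl⟩ _ hy⟩
  let ψ : M' →* G := φ.comp M'.subtype
  have hψr : ψ.range = M := by
    refine le_antisymm ?_ fun y hy => ?_
    · rintro _ ⟨y, rfl⟩; exact y.2
    · obtain ⟨x, rfl⟩ := hM hy
      exact ⟨⟨x, hy⟩, rfl⟩
  have hker' : Nat.card ψ.ker ∣ 2 :=
    (Subgroup.card_dvd_of_injective
      (((M'.subtype).comp ψ.ker.subtype).codRestrict φ.ker fun x => x.2) fun a b e =>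
        Subtype.ext (Subtype.ext (congrArg (fun z : φ.ker => (z : X)) e))).trans hker
  have hind : ψ.ker.index = Nat.card M := by rw [Subgroup.index_ker, hψr]
  obtain ⟨C, hC⟩ := Subgroup.exists_right_complement'_of_coprime (N := ψ.ker)
    (Nat.Coprime.coprime_dvd_left hker' (by rw [hind]; exact Nat.coprime_two_left.2 hodd))
  have hCc : Nat.card C = Nat.card M := by
    have h1 := hC.card_mul
    have h2 := ψ.ker.card_mul_index
    rw [← hind]
    exact Nat.eq_of_mul_eq_mul_left Nat.card_pos (h1.trans h2.symm)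
  -- the squares lie in the complement
  let S : Subgroup X := Subgroup.closure ((fun y : X => y ^ 2) '' (M' : Set X))
  have hSn : S.Normal := by
    refine ⟨fun s hs g => ?_⟩
    have hle : S ≤ S.comap (MulAut.conj g).toMonoidHom := by
      refine (Subgroup.closure_le _).2 ?_
      rintro _ ⟨y, hy, rfl⟩
      refine Subgroup.subset_closure ⟨g * y * g⁻¹, Subgroup.Normal.conj_mem inferInstance y hy g, ?_⟩
      change (g * y * g⁻¹) ^ 2 = g * y ^ 2 * g⁻¹
      rw [conj_pow]
    exact hle hs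
  have hCidx : C.index ∣ 2 := by
    rw [hC.index_eq_card]
    exact hker'
  have hSC : S ≤ C.map M'.subtype := by
    refine (Subgroup.closure_le _).2 ?_
    rintro _ ⟨y, hy, rfl⟩
    refine ⟨(⟨y, hy⟩ : M') ^ 2, ?_, rfl⟩
    rcases (Nat.dvd_prime Nat.prime_two).1 hCidx with h | h
    · rw [Subgroup.index_eq_one.1 h]; trivial
    · exact Subgroup.sq_mem_of_index_two h _
  have hSodd : Odd (Nat.card S) := by
    refine Odd.of_dvd_nat ?_ (Subgroup.card_dvd_of_le hSC)
    rw [Subgroup.card_map_of_injective M'.subtype_injective, hCc]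
    exact hodd
  have hS := hX S hSn hSodd
  rw [Subgroup.eq_bot_iff_forall]
  intro y hy
  obtain ⟨x, rfl⟩ := hM hy
  have hx : x ^ 2 ∈ S := Subgroup.subset_closure ⟨x, hy, rfl⟩
  rw [hS, Subgroup.mem_bot] at hx
  rw [← orderOf_eq_one_iff]
  have h1 : orderOf (φ x) ∣ 2 := orderOf_dvd_of_pow_eq_one (by rw [← map_pow, hx, map_one])
  rcases (Nat.dvd_prime Nat.prime_two).1 h1 with h | h
  · exact h
  · exact absurd (even_iff_two_dvd.2 (h ▸ Subgroup.orderOf_dvd_natCard M hy)) (Nat.not_even_iff_odd.2 hodd)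

/-- Normal subgroups of an image isomorphic to a simple group. -/
theorem eq_bot_of_simple {X G Y : Type*} [Group X] [Group G] [Finite G] [Group Y] [IsSimpleGroup Y]
    (φ : X →* G) (π : X →* Y) (hπ : Function.Surjective π) (hker : φ.ker = π.ker) {p : ℕ}
    (hp : p ∣ Nat.card φ.range) (M : Subgroup G) (hM : M ≤ φ.range)
    (hMn : ∀ r ∈ φ.range, ∀ y ∈ M, r * y * r⁻¹ ∈ M) (hMp : ¬ p ∣ Nat.card M) : M = ⊥ := by
  haveI : (M.comap φ).Normal := ⟨fun y hy s => by
    rw [Subgroup.mem_comap, map_mul, map_mul, map_inv]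
    exact hMn _ ⟨s, rfl⟩ _ hy⟩
  have hmap : ((M.comap φ).map π).Normal := Subgroup.Normal.map inferInstance π hπ
  rcases hmap.eq_bot_or_eq_top with h | h
  · rw [Subgroup.eq_bot_iff_forall]
    intro y hy
    obtain ⟨x, rfl⟩ := hM hy
    have h1 : π x ∈ (M.comap φ).map π := ⟨x, hy, rfl⟩
    rw [h, Subgroup.mem_bot, ← MonoidHom.mem_ker, ← hker] at h1
    exact MonoidHom.mem_ker.1 h1
  · exfalso
    have hfull : φ.range ≤ M := by
      rintro _ ⟨x, rfl⟩
      have h1 : π x ∈ (M.comap φ).map π := by rw [h]; trivial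
      obtain ⟨y, hy, e⟩ := h1
      have h2 : y⁻¹ * x ∈ φ.ker := by
        rw [hker, MonoidHom.mem_ker, map_mul, map_inv, e, inv_mul_cancel]
      rw [MonoidHom.mem_ker, map_mul, map_inv, inv_mul_eq_one] at h2
      rw [← h2]; exact hy
    exact hMp (hp.trans (Subgroup.card_dvd_of_le hfull))

/-- A normal subgroup of prime-power order of a group with a transitive action is trivial. -/
theorem eq_bot_of_transitive {X G Ω : Type*} [Group X] [Group G] [MulAction X Ω] [MulAction.IsPretransitive X Ω]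
    [Finite Ω] (φ : X →* G) (hker : ∀ x : X, φ x = 1 ↔ ∀ w : Ω, x • w = w) {r : ℕ} [Fact r.Prime]
    (hΩ : ¬ r ∣ Nat.card Ω) (M : Subgroup G) (hM : M ≤ φ.range)
    (hMn : ∀ s ∈ φ.range, ∀ y ∈ M, s * y * s⁻¹ ∈ M) (hMr : IsPGroup r M) : M = ⊥ := by
  let Ψ : X →* Equiv.Perm Ω := MulAction.toPermHom X Ω
  have hP : IsPGroup r ((M.comap φ).map Ψ) := by
    rintro ⟨_, x, hx, rfl⟩
    obtain ⟨k, hk⟩ := hMr ⟨φ x, hx⟩
    refine ⟨k, Subtype.ext ?_⟩
    have h1 : φ (x ^ r ^ k) = 1 := by rw [map_pow]; exact congrArg Subtype.val hk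
    change Ψ x ^ r ^ k = 1
    rw [← map_pow]
    exact Equiv.ext fun w => (hker _).1 h1 w
  obtain ⟨w₀, hw₀⟩ := IsPGroup.nonempty_fixed_point_of_prime_not_dvd_card hP Ω hΩ
  rw [Subgroup.eq_bot_iff_forall]
  intro y hy
  obtain ⟨x, rfl⟩ := hM hy
  refine (hker x).2 fun w => ?_
  obtain ⟨g, rfl⟩ := MulAction.exists_smul_eq X w₀ w
  have hmem : φ (g⁻¹ * x * g) ∈ M := by
    have := hMn _ ⟨g⁻¹, rfl⟩ _ hy
    rwa [← map_mul, ← map_inv, inv_inv, ← map_mul] at this
  have hfix : (g⁻¹ * x * g) • w₀ = w₀ := hw₀ ⟨Ψ _, _, hmem, rfl⟩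
  rw [mul_smul, mul_smul, inv_smul_eq_iff] at hfix
  exact hfix

/-! ### No odd normal subgroup in a form group -/

section Form

variable {F₀ : Type*} [Field F₀] [Fintype F₀] {n : ℕ} {G : Matrix (Fin n) (Fin n) F₀}

open QuadraticMap in
theorem formSub_no_odd_symm (hn : 3 ≤ n) (h2 : (2 : F₀) ≠ 0) (hG : G.det ≠ 0) (hGt : Gᵀ = G)
    (M : Subgroup (formSub G)) (hM : M.Normal) (hodd : Odd (Nat.card M)) : M = ⊥ := by
  classical
  let Q : QuadraticForm F₀ (Fin n → F₀) := LinearMap.BilinMap.toQuadraticMap (Matrix.toBilin' G)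
  have hQ : ∀ x, Q x = x ⬝ᵥ (G *ᵥ x) := fun x => Matrix.toBilin'_apply' G x x
  have hsym : ∀ x y : Fin n → F₀, x ⬝ᵥ (G *ᵥ y) = y ⬝ᵥ (G *ᵥ x) := fun x y => by
    conv_rhs => rw [← hGt, Matrix.mulVec_transpose, dotProduct_comm, ← Matrix.dotProduct_mulVec]
  have hpolar : ∀ x y, polar (⇑Q) x y = 2 * (x ⬝ᵥ (G *ᵥ y)) := fun x y => by
    rw [polar, hQ, hQ, hQ, Matrix.mulVec_add, add_dotProduct, dotProduct_add, dotProduct_add, hsym y x]
    ring
  have hQnd : (polarBilin Q).Nondegenerate := by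
    refine CfsgLib.Forms.nondegenerate_iff.2 fun x hx => ?_
    refine Matrix.eq_zero_of_vecMul_eq_zero hG (dotProduct_eq_zero _ fun y => ?_)
    rw [← Matrix.dotProduct_mulVec]
    have := hx y
    rw [hpolar] at this
    exact (mul_eq_zero.1 this).resolve_left h2
  haveI : Finite ((Fin n → F₀) ≃ₗ[F₀] (Fin n → F₀)) := Finite.of_injective _ DFunLike.coe_injective
  let θ : formSub G →* CfsgLib.Forms.isom Q :=
    (Matrix.SpecialLinearGroup.toLin'.comp (formSub G).subtype).codRestrict _ fun y x => by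
      change Q (Matrix.SpecialLinearGroup.toLin' y.1 x) = Q x
      rw [Matrix.SpecialLinearGroup.toLin'_apply, hQ, hQ, Matrix.toLin'_apply, form_mulVec_mulVec,
        mem_formSub.1 y.2]
  have hθv : ∀ (y : formSub G) (x : Fin n → F₀), (θ y).1 x = y.1.1 *ᵥ x := fun y x => by
    change Matrix.SpecialLinearGroup.toLin' y.1 x = _
    rw [Matrix.SpecialLinearGroup.toLin'_apply, Matrix.toLin'_apply]
  have hθi : Function.Injective θ := fun a b e =>
    Subtype.ext (Subtype.ext (Matrix.ext_iff_mulVec.2 fun x => by rw [← hθv, ← hθv, e]))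
  have hθn : θ.range.Normal := by
    refine ⟨?_⟩
    rintro _ ⟨y, rfl⟩ g
    set T : (Fin n → F₀) ≃ₗ[F₀] (Fin n → F₀) := (g * θ y * g⁻¹).1 with hT
    set A := LinearMap.toMatrix' T.toLinearMap with hA
    have hAx : ∀ x, A *ᵥ x = T x := fun x => by
      rw [hA, ← Matrix.toLin'_apply, Matrix.toLin'_toMatrix']
      rfl
    have hd : A.det = 1 := by
      rw [hA, LinearMap.det_toMatrix']
      have h1 : LinearEquiv.det T = LinearEquiv.det (θ y).1 := by
        rw [hT, Subgroup.coe_mul, Subgroup.coe_mul, map_mul, map_mul, Subgroup.coe_inv, map_inv,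
          mul_comm (LinearEquiv.det g.1), mul_inv_cancel_right]
      rw [← LinearEquiv.coe_det, h1, LinearEquiv.coe_det, ← LinearMap.det_toMatrix']
      rw [show LinearMap.toMatrix' (θ y).1.toLinearMap = y.1.1 from by
        refine Matrix.ext_iff_mulVec.2 fun x => ?_
        rw [← Matrix.toLin'_apply, Matrix.toLin'_toMatrix']
        exact hθv y x]
      exact y.1.2
    have hmem : (⟨A, hd⟩ : Matrix.SpecialLinearGroup (Fin n) F₀) ∈ formSub G := by
      refine mem_formSub.2 (Matrix.ext fun i j => ?_)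
      have h1 : ∀ u v, (A *ᵥ u) ⬝ᵥ (G *ᵥ (A *ᵥ v)) = u ⬝ᵥ (G *ᵥ v) := fun u v => by
        refine mul_left_cancel₀ h2 ?_
        rw [hAx, hAx, ← hpolar, ← hpolar]
        exact CfsgLib.Forms.isom_polar (g * θ y * g⁻¹).2 u v
      have := h1 (Pi.single i 1) (Pi.single j 1)
      rw [form_mulVec_mulVec] at this
      change (Aᵀ * G * A) i j = G i j
      simpa using this
    refine ⟨⟨⟨A, hd⟩, hmem⟩, Subtype.ext (LinearEquiv.ext fun x => ?_)⟩
    rw [hθv]
    exact hAx x
  refine no_odd_normal_of_injective θ hθi hθn (fun N hN hNodd => ?_) M hM hodd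
  have := CfsgLib.Forms.odd_normal_isom_eq_bot hQnd h2 (by rw [Module.finrank_fin_fun]; exact hn)
    (N.map (CfsgLib.Forms.isom Q).subtype) (Subgroup.map_subtype_le _) (fun g hg m hm => by
      obtain ⟨m, hm', rfl⟩ := hm
      exact ⟨⟨g, hg⟩ * m * ⟨g, hg⟩⁻¹, hN.conj_mem m hm' _, rfl⟩) (by
      rwa [Subgroup.card_map_of_injective (CfsgLib.Forms.isom Q).subtype_injective])
  rwa [Subgroup.map_eq_bot_iff_of_injective _ (CfsgLib.Forms.isom Q).subtype_injective] at this

theorem symplectic_no_odd {m : ℕ} (hm : 0 < m) {r : ℕ} [Fact r.Prime] [CharP F₀ r] (h2 : (2 : F₀) ≠ 0)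
    (N : Subgroup (Matrix.symplecticGroup (Fin m) F₀)) (hN : N.Normal) (hodd : Odd (Nat.card N)) : N = ⊥ := by
  classical
  haveI := hN
  have hneg : (-1 : Matrix (Fin m ⊕ Fin m) (Fin m ⊕ Fin m) F₀) ∈ Matrix.symplecticGroup (Fin m) F₀ := by
    rw [SymplecticGroup.mem_iff]; simp
  set z : Matrix.symplecticGroup (Fin m) F₀ := ⟨-1, hneg⟩ with hz
  have hz2 : orderOf z = 2 := by
    refine orderOf_eq_prime (Subtype.ext ?_) fun h => ?_
    · rw [pow_two]; simp [hz]
    · have h1 := congrFun (congrFun (congrArg Subtype.val h) (Sum.inl ⟨0, hm⟩)) (Sum.inl ⟨0, hm⟩)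
      simp [hz] at h1
      exact h2 (by linear_combination -h1)
  rcases CfsgLib.AutPSp.center_or_index (r := r) hm N with hc | ⟨k, hk⟩
  · rw [Subgroup.eq_bot_iff_forall]
    intro y hy
    rcases (CfsgLib.Symp.mem_center_iff hm y).1 (hc hy) with h | h
    · exact Subtype.ext h
    · exfalso
      have e : y = z := Subtype.ext h
      have := Subgroup.orderOf_dvd_natCard N hy
      rw [e, hz2] at this
      exact (Nat.not_even_iff_odd.2 hodd) (even_iff_two_dvd.2 this)
  · exfalso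
    have h1 := N.card_mul_index
    rw [hk] at h1
    have h3 : 2 ∣ Nat.card N * r ^ k := by rw [h1, ← hz2]; exact orderOf_dvd_natCard z
    rcases Nat.prime_two.dvd_mul.1 h3 with h4 | h4
    · exact (Nat.not_even_iff_odd.2 hodd) (even_iff_two_dvd.2 h4)
    · have h5 : 2 = r := (Nat.prime_dvd_prime_iff_eq Nat.prime_two Fact.out).1 (Nat.prime_two.dvd_of_dvd_pow h4)
      subst h5
      exact h2 (by exact_mod_cast CharP.cast_eq_zero F₀ 2)

theorem formSub_no_odd_skew (hn : 2 ≤ n) (h2 : (2 : F₀) ≠ 0) (hG : G.det ≠ 0) (hGt : Gᵀ = -G)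
    (M : Subgroup (formSub G)) (hM : M.Normal) (hodd : Odd (Nat.card M)) : M = ⊥ := by
  classical
  obtain ⟨r, hr⟩ := CharP.exists F₀
  haveI : Fact r.Prime := ⟨CharP.char_is_prime F₀ r⟩
  set B : LinearMap.BilinForm F₀ (Fin n → F₀) := Matrix.toBilin' G with hB
  have hBapp : ∀ x y, B x y = x ⬝ᵥ (G *ᵥ y) := fun x y => Matrix.toBilin'_apply' G x y
  have halt : B.IsAlt := fun x => by
    have e : x ⬝ᵥ (G *ᵥ x) = -(x ⬝ᵥ (G *ᵥ x)) := by
      conv_lhs => rw [show G = -Gᵀ by rw [hGt, neg_neg], Matrix.neg_mulVec, dotProduct_neg, Matrix.mulVec_transpose,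
        dotProduct_comm, ← Matrix.dotProduct_mulVec]
    rw [hBapp]
    exact (mul_eq_zero.1 (show 2 * (x ⬝ᵥ (G *ᵥ x)) = 0 by linear_combination e)).resolve_left h2
  obtain ⟨m, k, b, hef, hee, hff, hrad⟩ := Cfsg.Agent.S0752.result B halt
  have hk0 : k = 0 := by
    by_contra hk
    refine b.ne_zero (Sum.inr ⟨0, Nat.pos_of_ne_zero hk⟩)
      (Matrix.eq_zero_of_vecMul_eq_zero hG (dotProduct_eq_zero _ fun y => ?_))
    rw [← Matrix.dotProduct_mulVec, ← hBapp]
    exact hrad _ y
  subst hk0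
  have hcard : n = m + m := by
    have h1 := Module.finrank_eq_card_basis b
    rw [Module.finrank_fin_fun] at h1
    simpa using h1
  set c : Module.Basis (Fin m ⊕ Fin m) F₀ (Fin n → F₀) := b.reindex (Equiv.sumEmpty _ _) with hc
  let P : Matrix (Fin n) (Fin m ⊕ Fin m) F₀ := Matrix.of fun i j => c j i
  let P' : Matrix (Fin m ⊕ Fin m) (Fin n) F₀ := c.toMatrix (Pi.basisFun F₀ (Fin n))
  have hPe : P = (Pi.basisFun F₀ (Fin n)).toMatrix c := by
    ext i j
    simp [P, Module.Basis.toMatrix_apply]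
  have hPP' : P * P' = 1 := by rw [hPe]; exact Module.Basis.toMatrix_mul_toMatrix_flip _ _
  have hP'P : P' * P = 1 := by rw [hPe]; exact Module.Basis.toMatrix_mul_toMatrix_flip _ _
  have hJ : Pᵀ * G * P = -Matrix.J (Fin m) F₀ := by
    have hent : ∀ i j, (Pᵀ * G * P) i j = B (c i) (c j) := fun i j => by
      rw [hBapp, Matrix.mul_assoc]
      simp only [Matrix.mul_apply, dotProduct, Matrix.mulVec, Matrix.transpose_apply, P, Matrix.of_apply]
    ext i j
    rw [hent, hc]
    rcases i with i | i <;> rcases j with j | j <;>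
      simp only [Module.Basis.reindex_apply, Equiv.sumEmpty, Matrix.J, Matrix.neg_apply]
    · simpa using hee i j
    · simpa [Matrix.one_apply] using hef i j
    · have := hef j i
      rw [← LinearMap.IsAlt.neg halt] at this
      simp [Matrix.one_apply, eq_comm (a := i)]
      linear_combination -this
    · simpa using hff i j
  -- transport to the symplectic group
  let θ : formSub G →* Matrix.symplecticGroup (Fin m) F₀ :=
    { toFun := fun y => ⟨P' * y.1.1 * P, SymplecticGroup.mem_iff'.2 (by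
        have h1 : P'ᵀ * (Pᵀ * G * P) * P' = G := by
          rw [show P'ᵀ * (Pᵀ * G * P) * P' = (P * P')ᵀ * G * (P * P') by
            rw [Matrix.transpose_mul]; simp only [Matrix.mul_assoc]]
          rw [hPP', Matrix.transpose_one, Matrix.one_mul, Matrix.mul_one]
        rw [show (Matrix.J (Fin m) F₀) = -(Pᵀ * G * P) by rw [hJ, neg_neg]]
        rw [Matrix.mul_neg, Matrix.neg_mul, neg_inj, Matrix.transpose_mul, Matrix.transpose_mul,
          show Pᵀ * (y.1.1ᵀ * P'ᵀ) * (Pᵀ * G * P) * (P' * y.1.1 * P) =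
            Pᵀ * (y.1.1ᵀ * (P'ᵀ * (Pᵀ * G * P) * P') * y.1.1) * P by simp only [Matrix.mul_assoc],
          h1, mem_formSub.1 y.2])⟩
      map_one' := Subtype.ext (by
        change P' * (1 : Matrix (Fin n) (Fin n) F₀) * P = 1
        rw [Matrix.mul_one, hP'P])
      map_mul' := fun x y => Subtype.ext (by
        change P' * (x.1.1 * y.1.1) * P = (P' * x.1.1 * P) * (P' * y.1.1 * P)
        rw [show (P' * x.1.1 * P) * (P' * y.1.1 * P) = P' * (x.1.1 * (P * P') * y.1.1) * P by
          simp only [Matrix.mul_assoc], hPP', Matrix.mul_one]) }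
  have hback : ∀ y : formSub G, P * (θ y).1 * P' = y.1.1 := fun y => by
    change P * (P' * y.1.1 * P) * P' = y.1.1
    rw [show P * (P' * y.1.1 * P) * P' = (P * P') * y.1.1 * (P * P') by simp only [Matrix.mul_assoc],
      hPP', Matrix.one_mul, Matrix.mul_one]
  have hθi : Function.Injective θ := fun x y e =>
    Subtype.ext (Subtype.ext (by rw [← hback x, e, hback]))
  have hθn : θ.range.Normal := by
    refine ⟨?_⟩
    rintro _ ⟨y, rfl⟩ g
    set A := P * g.1 * P' with hA
    set A' := P * (g⁻¹).1 * P' with hA'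
    have hAA : A * A' = 1 := by
      rw [hA, hA', show P * g.1 * P' * (P * (g⁻¹).1 * P') = P * (g.1 * (P' * P) * (g⁻¹).1) * P' by
        simp only [Matrix.mul_assoc], hP'P, Matrix.mul_one,
        show g.1 * (g⁻¹).1 = 1 from congrArg Subtype.val (mul_inv_cancel g), Matrix.mul_one, hPP']
    have hform : ∀ g : Matrix.symplecticGroup (Fin m) F₀, (P * g.1 * P')ᵀ * G * (P * g.1 * P') = G := fun g => by
      have hg := SymplecticGroup.mem_iff'.1 g.2
      rw [show (P * g.1 * P')ᵀ * G * (P * g.1 * P') = P'ᵀ * (g.1ᵀ * (Pᵀ * G * P) * g.1) * P' by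
        simp only [Matrix.transpose_mul, Matrix.mul_assoc], hJ, Matrix.mul_neg, Matrix.neg_mul, hg, ← hJ,
        show P'ᵀ * (Pᵀ * G * P) * P' = (P * P')ᵀ * G * (P * P') by
          simp only [Matrix.transpose_mul, Matrix.mul_assoc], hPP', Matrix.transpose_one, Matrix.one_mul,
        Matrix.mul_one]
    have hd : (A * y.1.1 * A').det = 1 := by
      rw [Matrix.det_mul, Matrix.det_mul, y.1.2, mul_one, ← Matrix.det_mul, hAA, Matrix.det_one]
    refine ⟨⟨⟨A * y.1.1 * A', hd⟩, mem_formSub.2 ?_⟩, Subtype.ext ?_⟩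
    · change (A * y.1.1 * A')ᵀ * G * (A * y.1.1 * A') = G
      rw [show (A * y.1.1 * A')ᵀ * G * (A * y.1.1 * A') = A'ᵀ * (y.1.1ᵀ * (Aᵀ * G * A) * y.1.1) * A' by
        simp only [Matrix.transpose_mul, Matrix.mul_assoc], hA, hform g, mem_formSub.1 y.2, hA', hform]
    · change P' * (A * y.1.1 * A') * P = g.1 * (P' * y.1.1 * P) * (g⁻¹).1
      rw [hA, hA', show P' * (P * g.1 * P' * y.1.1 * (P * (g⁻¹).1 * P')) * P =
        (P' * P) * g.1 * (P' * y.1.1 * P) * (g⁻¹).1 * (P' * P) by simp only [Matrix.mul_assoc],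
        hP'P, Matrix.one_mul, Matrix.mul_one]
  exact no_odd_normal_of_injective θ hθi hθn
    (fun N hN hN' => symplectic_no_odd (m := m) (r := r) (by omega) h2 N hN hN') M hM hodd

/-- A normal subgroup of odd order of a form group is trivial. -/
theorem formSub_no_odd (hn : 3 ≤ n) (h2 : (2 : F₀) ≠ 0) (hG : G.det ≠ 0) (hGt : Gᵀ = G ∨ Gᵀ = -G)
    (M : Subgroup (formSub G)) (hM : M.Normal) (hodd : Odd (Nat.card M)) : M = ⊥ := by
  rcases hGt with h | h
  · exact formSub_no_odd_symm hn h2 hG h M hM hodd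
  · exact formSub_no_odd_skew (by omega) h2 hG h M hM hodd

end Form

end CfsgLib.LocalBalance
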