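import Cfsg.Agent.UGeom.Eichler
import Cfsg.Agent.UGeom.Count
import Cfsg.Agent.Forms.Basic
import Mathlib
set_option autoImplicit false

/-!
Rigidity: a semilinear map commuting up to scalars with a classical group over a subfield is a
scalar, and induces the identity on the subfield.
-/

namespace CfsgLib.Rigid

open Matrix

variable {F₀ F : Type*} [Field F₀] [Field F] {n : ℕ}

/-- A matrix twisted by a second embedding of the subfield commutes up to a scalar with `y`. -/
def Semi (ρ ι : F₀ →+* F) (b : Matrix (Fin n) (Fin n) F) (y y' : Matrix (Fin n) (Fin n) F₀) : Prop :=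
  ∃ c : F, b * y.map ρ = c • (y'.map ι * b)

variable {ρ ι : F₀ →+* F} {b : Matrix (Fin n) (Fin n) F}

theorem pow_semi {x y : Matrix (Fin n) (Fin n) F} {c : F} (h : b * x = c • (y * b)) :
    ∀ k : ℕ, b * x ^ k = c ^ k • (y ^ k * b)
  | 0 => by simp
  | k + 1 => by
    rw [pow_succ, ← Matrix.mul_assoc, pow_semi h k, Matrix.smul_mul, Matrix.mul_assoc, h, Matrix.mul_smul,
      smul_smul, ← Matrix.mul_assoc, ← pow_succ, ← pow_succ]

theorem eq_one_of_pow {r : ℕ} [Fact r.Prime] [CharP F r] {c : F} (h : c ^ r = 1) : c = 1 := by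
  have h1 : (c - 1) ^ r = 0 := by rw [sub_pow_char, h, one_pow, sub_self]
  exact sub_eq_zero.1 (pow_eq_zero_iff (Fact.out : r.Prime).ne_zero |>.1 h1)

/-- The scalar of two elements of order the characteristic is one. -/
theorem semi_unipotent [NeZero n] (hb : b.det ≠ 0) {r : ℕ} [Fact r.Prime] [CharP F r]
    {y y' : Matrix (Fin n) (Fin n) F₀} (hy : y ^ r = 1) (hy' : y' ^ r = 1) (h : Semi ρ ι b y y') :
    b * y.map ρ = y'.map ι * b := by
  obtain ⟨c, hc⟩ := h
  have h1 := pow_semi hc r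
  have e1 : y.map ρ ^ r = 1 := by
    change ρ.mapMatrix y ^ r = 1
    rw [← map_pow, hy, map_one]
  have e2 : y'.map ι ^ r = 1 := by
    change ι.mapMatrix y' ^ r = 1
    rw [← map_pow, hy', map_one]
  rw [e1, e2, Matrix.mul_one, Matrix.one_mul] at h1
  have hc1 : c ^ r = 1 := by
    by_contra hne
    have h2 : (1 - c ^ r) • b = 0 := by rw [sub_smul, one_smul, ← h1, sub_self]
    rw [smul_eq_zero] at h2
    rcases h2 with h2 | h2
    · exact hne (by linear_combination -h2)
    · exact hb (by rw [h2, Matrix.det_zero])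
  rw [hc, eq_one_of_pow hc1, one_smul]

/-- The semilinear map sends the line of `d` to that of `d'`. -/
theorem map_line [NeZero n] (hb : b.det ≠ 0) {r : ℕ} [Fact r.Prime] [CharP F r]
    {y y' : Matrix (Fin n) (Fin n) F₀} (hy : y ^ r = 1) (hy' : y' ^ r = 1) (h : Semi ρ ι b y y')
    {k : ℕ} {d φ d' φ' : Fin n → F₀} (hk : (y - 1) ^ k = vecMulVec d φ) (hk' : (y' - 1) ^ k = vecMulVec d' φ')
    (hφ : φ ≠ 0) : ∃ a : F, b *ᵥ (ρ ∘ d) = a • (ι ∘ d') := by
  have h1 := semi_unipotent hb hy hy' h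
  have h2 : b * ρ.mapMatrix (y - 1) = ι.mapMatrix (y' - 1) * b := by
    rw [map_sub, map_sub, map_one, map_one, Matrix.mul_sub, Matrix.sub_mul, Matrix.mul_one, Matrix.one_mul]
    exact congrArg (· - b) h1
  have h3 : b * ρ.mapMatrix ((y - 1) ^ k) = ι.mapMatrix ((y' - 1) ^ k) * b := by
    rw [map_pow, map_pow]
    exact ((show SemiconjBy b (ρ.mapMatrix (y - 1)) (ι.mapMatrix (y' - 1)) from h2).pow_right k)
  rw [hk, hk'] at h3
  have e : ∀ (f : F₀ →+* F) (u w : Fin n → F₀), f.mapMatrix (vecMulVec u w) = vecMulVec (f ∘ u) (f ∘ w) := by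
    intro f u w
    ext i j
    simp [vecMulVec_apply]
  rw [e, e, Matrix.mul_vecMulVec, Matrix.vecMulVec_mul] at h3
  obtain ⟨j, hj⟩ : ∃ j, φ j ≠ 0 := by
    by_contra hno
    push Not at hno
    exact hφ (funext hno)
  have hj' : ρ (φ j) ≠ 0 := (map_ne_zero ρ).2 hj
  refine ⟨((ι ∘ φ') ᵥ* b) j / ρ (φ j), funext fun i => ?_⟩
  have h4 := congrFun (congrFun h3 i) j
  simp only [vecMulVec_apply, Function.comp_apply] at h4
  simp only [Pi.smul_apply, Function.comp_apply, smul_eq_mul]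
  field_simp
  linear_combination h4

/-- Semilinearity. -/
theorem semi_add (u v : Fin n → F₀) : b *ᵥ (ρ ∘ (u + v)) = b *ᵥ (ρ ∘ u) + b *ᵥ (ρ ∘ v) := by
  rw [← Matrix.mulVec_add]
  exact congrArg _ (funext fun i => map_add ρ _ _)

theorem semi_sub (u v : Fin n → F₀) : b *ᵥ (ρ ∘ (u - v)) = b *ᵥ (ρ ∘ u) - b *ᵥ (ρ ∘ v) := by
  rw [← Matrix.mulVec_sub]
  exact congrArg _ (funext fun i => map_sub ρ _ _)

theorem semi_smul (c : F₀) (v : Fin n → F₀) : b *ᵥ (ρ ∘ (c • v)) = ρ c • (b *ᵥ (ρ ∘ v)) := by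
  rw [← Matrix.mulVec_smul]
  exact congrArg _ (funext fun i => map_mul ρ _ _)

theorem comp_single (f : F₀ →+* F) (i : Fin n) (x : F₀) :
    f ∘ (Pi.single i x : Fin n → F₀) = Pi.single i (f x) := by
  funext j
  by_cases hj : j = i
  · subst hj; simp
  · simp [hj]

theorem scalar_of_single {a : F} (h : ∀ i : Fin n, b *ᵥ (Pi.single i 1) = a • Pi.single i 1) :
    b = a • (1 : Matrix (Fin n) (Fin n) F) :=
  Matrix.ext_of_mulVec_single fun i => by rw [h, Matrix.smul_mulVec, Matrix.one_mulVec]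

theorem ne_zero_of_single (hb : b.det ≠ 0) {a : F} {i : Fin n}
    (h : b *ᵥ (Pi.single i 1) = a • Pi.single i 1) : a ≠ 0 := by
  rintro rfl
  rw [zero_smul] at h
  exact (Pi.single_ne_zero_iff.2 one_ne_zero) (Matrix.eq_zero_of_mulVec_eq_zero hb h)

/-- All lines over the subfield are fixed. -/
theorem scalar_of_lines (hn : 2 ≤ n) (hb : b.det ≠ 0)
    (h : ∀ v : Fin n → F₀, v ≠ 0 → ∃ a : F, b *ᵥ (ρ ∘ v) = a • (ι ∘ v)) :
    (∃ l : F, b = l • (1 : Matrix (Fin n) (Fin n) F)) ∧ ρ = ι := by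
  choose a ha using fun i => h (Pi.single i 1) (Pi.single_ne_zero_iff.2 one_ne_zero)
  simp only [comp_single, map_one] at ha
  have key : ∀ i j, i ≠ j → ∀ m : F₀, ρ m * a j = a i * ι m := by
    intro i j hij m
    obtain ⟨β, hβ⟩ := h (Pi.single i 1 + m • Pi.single j 1) (fun h0 => by
      simpa [hij] using congrFun h0 i)
    rw [semi_add, semi_smul, comp_single, map_one, ha, comp_single, map_one, ha] at hβ
    have q1 := congrFun hβ i
    have q2 := congrFun hβ j
    simp [hij, hij.symm] at q1 q2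
    rw [q2, ← q1]
  let i₀ : Fin n := ⟨0, by omega⟩
  let i₁ : Fin n := ⟨1, by omega⟩
  have h01 : i₀ ≠ i₁ := fun e => by simpa [i₀, i₁] using congrArg Fin.val e
  have hall : ∀ i, a i = a i₀ := fun i => by
    rcases eq_or_ne i i₀ with rfl | hi
    · rfl
    · have := key i₀ i (Ne.symm hi) 1
      rwa [map_one, map_one, one_mul, mul_one] at this
  refine ⟨⟨a i₀, scalar_of_single fun i => by rw [ha, hall]⟩, RingHom.ext fun m => ?_⟩
  have := key i₀ i₁ h01 m
  rw [hall i₁, mul_comm] at this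
  exact mul_left_cancel₀ (ne_zero_of_single hb (ha i₀)) this

/-- A transvection has order the characteristic. -/
theorem transvection_pow {r : ℕ} [Fact r.Prime] [CharP F₀ r] {v φ : Fin n → F₀} (h : φ ⬝ᵥ v = 0) [NeZero n] :
    (1 + vecMulVec v φ) ^ r = 1 := by
  rw [add_pow_char_of_commute r (Commute.one_left _), one_pow]
  obtain ⟨k, hk⟩ : ∃ k, r = k + 2 := ⟨r - 2, by have := (Fact.out : r.Prime).two_le; omega⟩
  rw [hk, pow_add, pow_two, vecMulVec_mul_vecMulVec, h, zero_smul, vecMulVec_zero, mul_zero, add_zero]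

section Unitary

variable [Fintype F₀] {q₀ : ℕ}

open CfsgLib.UGeom

/-- The isotropic lines over the subfield are fixed. -/
theorem scalar_of_isotropic (C : Conj F₀ q₀) (hn : 3 ≤ n) (hb : b.det ≠ 0)
    (h : ∀ v : Fin n → F₀, v ≠ 0 → Cfsg.hermForm n F₀ q₀ v v = 0 → ∃ a : F, b *ᵥ (ρ ∘ v) = a • (ι ∘ v)) :
    (∃ l : F, b = l • (1 : Matrix (Fin n) (Fin n) F)) ∧ ρ = ι := by
  classical
  obtain ⟨x₀, hx00, hx0⟩ := CfsgLib.Hermitian.exists_norm C.ne_id C.invol (neg_ne_zero.2 (one_ne_zero (α := F₀)))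
    (by rw [map_neg, map_one])
  rw [mul_comm] at hx0
  obtain ⟨u, hu, hu1⟩ := exists_norm_one_ne C
  let e : Fin n → Fin n → F₀ := fun i => Pi.single i 1
  have hnorm : ∀ x : F₀, x * C.σ x = -1 → ∀ i j, i ≠ j →
      ∃ β : F, b *ᵥ (ρ ∘ e i) + ρ x • (b *ᵥ (ρ ∘ e j)) = β • (ι ∘ e i) + (β * ι x) • (ι ∘ e j) := by
    intro x hx i j hij
    obtain ⟨β, hβ⟩ := h (e i + x • e j) (fun h0 => by simpa [e, hij] using congrFun h0 i) (by
      simp only [form_add_left, form_add_right C, form_smul_left, form_smul_right C, e, form_single_right C,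
        Pi.add_apply, Pi.smul_apply, smul_eq_mul, Pi.single_eq_same, Pi.single_eq_of_ne hij, Pi.single_eq_of_ne hij.symm]
      linear_combination hx)
    rw [semi_add, semi_smul] at hβ
    refine ⟨β, hβ.trans ?_⟩
    funext k
    simp [map_add, map_mul, mul_add, mul_assoc]
  have hx1 : (x₀ * u) * C.σ (x₀ * u) = -1 := by
    rw [map_mul]; linear_combination (x₀ * C.σ x₀) * hu + hx0
  have hne : x₀ * u ≠ x₀ := fun e' => hu1 (mul_left_cancel₀ hx00 (e'.trans (mul_one _).symm))
  have hplane : ∀ i j, i ≠ j → ∀ k, k ≠ i → k ≠ j → (b *ᵥ (ρ ∘ e i)) k = 0 := by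
    intro i j hij k hki hkj
    obtain ⟨β, hβ⟩ := hnorm x₀ hx0 i j hij
    obtain ⟨β', hβ'⟩ := hnorm (x₀ * u) hx1 i j hij
    have q1 := congrFun hβ k
    have q2 := congrFun hβ' k
    simp [e, comp_single, hki, hkj] at q1 q2
    have q3 : (ρ (x₀ * u) - ρ x₀) * (b *ᵥ (ρ ∘ e j)) k = 0 := by
      simp only [e, comp_single, map_one, map_mul] at q1 q2 ⊢
      simp only [Matrix.mulVec_single_one, Matrix.col_apply] at q1 q2 ⊢
      linear_combination q2 - q1
    have q4 := (mul_eq_zero.1 q3).resolve_left (sub_ne_zero.2 fun e' => hne (ρ.injective e'))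
    simp only [e, comp_single, map_one, Matrix.mulVec_single_one, Matrix.col_apply] at q1 q4 ⊢
    rw [q4, mul_zero, add_zero] at q1
    exact q1
  have hdiag : ∀ i k, k ≠ i → (b *ᵥ (ρ ∘ e i)) k = 0 := by
    intro i k hki
    obtain ⟨j, hj⟩ : ∃ j, j ∉ ({i, k} : Finset (Fin n)) := by
      by_contra hall
      push Not at hall
      have := (Finset.card_le_card (fun x _ => hall x : Finset.univ ⊆ ({i, k} : Finset (Fin n)))).trans Finset.card_le_two
      rw [Finset.card_univ, Fintype.card_fin] at this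
      omega
    simp only [Finset.mem_insert, Finset.mem_singleton, not_or] at hj
    exact hplane i j (Ne.symm hj.1) k hki (Ne.symm hj.2)
  set a : Fin n → F := fun i => (b *ᵥ (ρ ∘ e i)) i with ha
  have hbe : ∀ i, b *ᵥ (ρ ∘ e i) = a i • (ι ∘ e i) := fun i => funext fun k => by
    rcases eq_or_ne k i with rfl | hk
    · simp [e, ha]
    · rw [hdiag i k hk]; simp [e, hk]
  have key : ∀ x : F₀, x * C.σ x = -1 → ∀ i j, i ≠ j → ρ x * a j = a i * ι x := by
    intro x hx i j hij
    obtain ⟨β, hβ⟩ := hnorm x hx i j hij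
    rw [hbe, hbe] at hβ
    have q1 := congrFun hβ i
    have q2 := congrFun hβ j
    simp [e, hij, hij.symm] at q1 q2
    rw [q2, ← q1]
  let i₀ : Fin n := ⟨0, by omega⟩
  let i₁ : Fin n := ⟨1, by omega⟩
  have h01 : i₀ ≠ i₁ := fun e => by simpa [i₀, i₁] using congrArg Fin.val e
  have hb1 : ∀ i, b *ᵥ (Pi.single i 1) = a i • Pi.single i 1 := fun i => by
    have := hbe i
    simpa only [e, comp_single, map_one] using this
  have ha0 : ∀ i, a i ≠ 0 := fun i => ne_zero_of_single hb (hb1 i)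
  -- the units of norm one are fixed
  have hN : ∀ w : F₀, w * C.σ w = 1 → ρ w = ι w := by
    intro w hw
    have k1 := key x₀ hx0 i₀ i₁ h01
    have k2 := key (x₀ * w) (by rw [map_mul]; linear_combination (x₀ * C.σ x₀) * hw + hx0) i₀ i₁ h01
    rw [map_mul, map_mul] at k2
    refine mul_left_cancel₀ (mul_ne_zero (ha0 i₀) ((map_ne_zero ι).2 hx00)) ?_
    linear_combination k2 - ρ w * k1
  have hρ : ρ = ι := by
    by_contra hne'
    obtain ⟨z, hz⟩ : ∃ z, z ∉ ρ.eqLocusField ι := by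
      by_contra hall
      push Not at hall
      exact hne' (RingHom.ext hall)
    set K := ρ.eqLocusField ι with hK
    haveI : Fintype K := Fintype.ofFinite _
    have hinj : Function.Injective fun s : K × K => (s.1 : F₀) + (s.2 : F₀) * z := by
      rintro ⟨s, t⟩ ⟨s', t'⟩ hst
      simp only at hst
      have ht : t = t' := by
        by_contra hne''
        have hd : ((t : F₀) - t') ≠ 0 := sub_ne_zero.2 fun e' => hne'' (Subtype.ext e')
        have hze : z = ((s' : F₀) - s) / ((t : F₀) - t') := by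
          field_simp
          linear_combination hst
        exact hz (hze ▸ div_mem (sub_mem s'.2 s.2) (sub_mem t.2 t'.2))
      subst ht
      exact Prod.ext (Subtype.ext (add_right_cancel hst)) rfl
    have h1 : Fintype.card K * Fintype.card K ≤ q₀ ^ 2 := by
      rw [← Fintype.card_prod, ← C.card]; exact Fintype.card_le_of_injective _ hinj
    let j : Option {w : F₀ˣ // w ^ (q₀ + 1) = 1} → K := fun o => o.elim 0 fun w => ⟨(w.1 : F₀), hN _ (by
      have := congrArg Units.val w.2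
      rw [Units.val_pow_eq_pow_val, Units.val_one, pow_succ'] at this
      rwa [C.pow])⟩
    have hj : Function.Injective j := by
      rintro (_ | w) (_ | w') e'
      · rfl
      · exact absurd (congrArg Subtype.val e') (Ne.symm w'.1.ne_zero)
      · exact absurd (congrArg Subtype.val e') w.1.ne_zero
      · exact congrArg some (Subtype.ext (Units.ext (congrArg (fun k : K => (k : F₀)) e')))
    have h2 := Fintype.card_le_of_injective j hj
    have h3 := card_norm_one C
    rw [Nat.card_eq_fintype_card] at h3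
    rw [Fintype.card_option, h3] at h2
    have h4 : (q₀ + 2) * (q₀ + 2) ≤ q₀ ^ 2 := le_trans (Nat.mul_le_mul h2 h2) h1
    nlinarith
  refine ⟨⟨a i₀, scalar_of_single fun i => ?_⟩, hρ⟩
  rw [hb1]
  rcases eq_or_ne i i₀ with rfl | hi
  · rfl
  · congr 1
    have := key x₀ hx0 i₀ i (Ne.symm hi)
    rw [hρ, mul_comm] at this
    exact mul_right_cancel₀ ((map_ne_zero ι).2 hx00) this

end Unitary

/-! ### Form groups -/

/-- The determinant-one isometries of the form with matrix `G`. -/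
def formSub (G : Matrix (Fin n) (Fin n) F₀) : Subgroup (Matrix.SpecialLinearGroup (Fin n) F₀) where
  carrier := {y | y.1ᵀ * G * y.1 = G}
  one_mem' := by simp
  mul_mem' := fun {x y} hx hy => by
    change (x.1 * y.1)ᵀ * G * (x.1 * y.1) = G
    rw [Matrix.transpose_mul, show y.1ᵀ * x.1ᵀ * G * (x.1 * y.1) = y.1ᵀ * (x.1ᵀ * G * x.1) * y.1 by
      simp only [Matrix.mul_assoc], show x.1ᵀ * G * x.1 = G from hx]
    exact hy
  inv_mem' := fun {x} hx => by
    change (x⁻¹).1ᵀ * G * (x⁻¹).1 = G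
    have h1 : x.1 * (x⁻¹).1 = 1 := by
      change (x * x⁻¹).1 = _
      rw [mul_inv_cancel]; rfl
    conv_lhs => rw [show G = x.1ᵀ * G * x.1 from (Eq.symm hx)]
    rw [show (x⁻¹).1ᵀ * (x.1ᵀ * G * x.1) * (x⁻¹).1 = (x.1 * (x⁻¹).1)ᵀ * G * (x.1 * (x⁻¹).1) by
      rw [Matrix.transpose_mul]; simp only [Matrix.mul_assoc], h1, Matrix.transpose_one, Matrix.one_mul,
      Matrix.mul_one]

variable {G : Matrix (Fin n) (Fin n) F₀}

theorem mem_formSub {y : Matrix.SpecialLinearGroup (Fin n) F₀} : y ∈ formSub G ↔ y.1ᵀ * G * y.1 = G := Iff.rfl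

theorem form_mulVec_mulVec (M : Matrix (Fin n) (Fin n) F₀) (x x' : Fin n → F₀) :
    (M *ᵥ x) ⬝ᵥ (G *ᵥ (M *ᵥ x')) = x ⬝ᵥ ((Mᵀ * G * M) *ᵥ x') := by
  rw [Matrix.mul_assoc, ← Matrix.mulVec_mulVec, ← Matrix.mulVec_mulVec, Matrix.dotProduct_mulVec x,
    Matrix.vecMul_transpose]

/-- An isometry of order the characteristic gives an element of the form group. -/
theorem exists_form_elem [NeZero n] {r : ℕ} [Fact r.Prime] [CharP F₀ r] {M : Matrix (Fin n) (Fin n) F₀}
    (hM : M ^ r = 1)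
    (hform : ∀ x x' : Fin n → F₀, (M *ᵥ x) ⬝ᵥ (G *ᵥ (M *ᵥ x')) = x ⬝ᵥ (G *ᵥ x')) :
    ∃ y : formSub G, y.1.1 = M := by
  have hd : M.det = 1 := by
    refine eq_one_of_pow (r := r) ?_
    rw [← Matrix.det_pow, hM, Matrix.det_one]
  refine ⟨⟨⟨M, hd⟩, ?_⟩, rfl⟩
  refine mem_formSub.2 (Matrix.ext fun i j => ?_)
  have := hform (Pi.single i 1) (Pi.single j 1)
  rw [form_mulVec_mulVec] at this
  simpa using this

/-- Rigidity for symplectic groups. -/
theorem scalar_of_skew (hn : 2 ≤ n) (hskew : ∀ x y : Fin n → F₀, x ⬝ᵥ (G *ᵥ y) = -(y ⬝ᵥ (G *ᵥ x)))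
    (halt : ∀ x : Fin n → F₀, x ⬝ᵥ (G *ᵥ x) = 0) (hG : G.det ≠ 0) {r : ℕ} [Fact r.Prime] [CharP F r]
    (hb : b.det ≠ 0) (h : ∀ y : formSub G, Semi ρ ι b y.1.1 y.1.1) :
    (∃ l : F, b = l • (1 : Matrix (Fin n) (Fin n) F)) ∧ ρ = ι := by
  haveI : NeZero n := ⟨by omega⟩
  haveI : CharP F₀ r := (RingHom.charP_iff ι ι.injective r).2 inferInstance
  refine scalar_of_lines hn hb fun v hv => ?_
  have hdot : (v ᵥ* G) ⬝ᵥ v = 0 := by rw [← Matrix.dotProduct_mulVec]; exact halt v
  obtain ⟨y, hy⟩ := exists_form_elem (G := G) (transvection_pow (r := r) (v := v) (φ := v ᵥ* G) hdot) (by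
    intro x x'
    have e : ∀ x, (1 + vecMulVec v (v ᵥ* G)) *ᵥ x = x + (v ⬝ᵥ (G *ᵥ x)) • v := fun x => by
      rw [Matrix.add_mulVec, Matrix.one_mulVec, Matrix.vecMulVec_mulVec, ← Matrix.dotProduct_mulVec]
      funext i
      simp [mul_comm]
    rw [e, e, Matrix.mulVec_add, Matrix.mulVec_smul]
    simp only [add_dotProduct, dotProduct_add, smul_dotProduct, dotProduct_smul, smul_eq_mul, halt]
    rw [hskew x v]
    ring)
  have hp : y.1.1 ^ r = 1 := by rw [hy]; exact transvection_pow hdot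
  have hk : (y.1.1 - 1) ^ 1 = vecMulVec v (v ᵥ* G) := by rw [pow_one, hy, add_sub_cancel_left]
  exact map_line hb hp hp (h y) hk hk fun h0 => hv (Matrix.eq_zero_of_vecMul_eq_zero hG h0)

/-- Rigidity for orthogonal groups. -/
theorem scalar_of_symm [Fintype F₀] (hn : 3 ≤ n) (h2 : (2 : F₀) ≠ 0)
    (hsym : ∀ x y : Fin n → F₀, x ⬝ᵥ (G *ᵥ y) = y ⬝ᵥ (G *ᵥ x)) (hG : G.det ≠ 0) {r : ℕ} [Fact r.Prime]
    [CharP F r] (hb : b.det ≠ 0) (h : ∀ y : formSub G, Semi ρ ι b y.1.1 y.1.1) :
    (∃ l : F, b = l • (1 : Matrix (Fin n) (Fin n) F)) ∧ ρ = ι := by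
  classical
  haveI : NeZero n := ⟨by omega⟩
  haveI : CharP F₀ r := (RingHom.charP_iff ι ι.injective r).2 inferInstance
  have hr3 : 3 ≤ r := by
    have := (Fact.out : r.Prime).two_le
    by_contra hlt
    have : r = 2 := by omega
    subst this
    exact h2 (by exact_mod_cast CharP.cast_eq_zero F₀ 2)
  let B : (Fin n → F₀) → (Fin n → F₀) → F₀ := fun x y => x ⬝ᵥ (G *ᵥ y)
  have Bsym : ∀ x y, B x y = B y x := hsym
  have Badd : ∀ x x' y, B (x + x') y = B x y + B x' y := fun x x' y => add_dotProduct _ _ _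
  have Bsub : ∀ x x' y, B (x - x') y = B x y - B x' y := fun x x' y => sub_dotProduct _ _ _
  have Bsmul : ∀ (c : F₀) x y, B (c • x) y = c * B x y := fun c x y => smul_dotProduct _ _ _
  have Baddr : ∀ x y y', B x (y + y') = B x y + B x y' := fun x y y' => by rw [Bsym, Badd, Bsym y, Bsym y']
  have Bsubr : ∀ x y y', B x (y - y') = B x y - B x y' := fun x y y' => by rw [Bsym, Bsub, Bsym y, Bsym y']
  have Bsmulr : ∀ (c : F₀) x y, B x (c • y) = c * B x y := fun c x y => by rw [Bsym, Bsmul, Bsym y]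
  have Bnd : ∀ x, (∀ y, B x y = 0) → x = 0 := fun x hx => by
    refine Matrix.eq_zero_of_vecMul_eq_zero hG (dotProduct_eq_zero _ fun y => ?_)
    rw [← Matrix.dotProduct_mulVec]; exact hx y
  -- singular lines are fixed as soon as they have an orthogonal anisotropic vector
  have hline : ∀ d a : Fin n → F₀, d ≠ 0 → B d d = 0 → B a d = 0 → B a a ≠ 0 →
      ∃ l : F, b *ᵥ (ρ ∘ d) = l • (ι ∘ d) := by
    intro d a hd0 hdd had haa
    set c := B a a / 2 with hc
    set M : Matrix (Fin n) (Fin n) F₀ :=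
      1 + (vecMulVec d (a ᵥ* G) - vecMulVec a (d ᵥ* G) - c • vecMulVec d (d ᵥ* G)) with hM
    have hMx : ∀ x, M *ᵥ x = x + (B a x • d - B d x • a - (c * B d x) • d) := fun x => by
      rw [hM, Matrix.add_mulVec, Matrix.one_mulVec, Matrix.sub_mulVec, Matrix.sub_mulVec, Matrix.smul_mulVec,
        Matrix.vecMulVec_mulVec, Matrix.vecMulVec_mulVec, Matrix.vecMulVec_mulVec, ← Matrix.dotProduct_mulVec,
        ← Matrix.dotProduct_mulVec]
      funext i
      simp [B, mul_comm]
      ring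
    have hN : ∀ x, (M - 1) *ᵥ x = B a x • d - B d x • a - (c * B d x) • d := fun x => by
      rw [Matrix.sub_mulVec, hMx, Matrix.one_mulVec, add_sub_cancel_left]
    have hN2 : (M - 1) ^ 2 = vecMulVec d ((-(2 * c)) • (d ᵥ* G)) := Matrix.ext_iff_mulVec.2 fun x => by
      rw [pow_two, ← Matrix.mulVec_mulVec, hN x, Matrix.mulVec_sub, Matrix.mulVec_sub, Matrix.mulVec_smul,
        Matrix.mulVec_smul, Matrix.mulVec_smul, hN, hN, Matrix.vecMulVec_mulVec, smul_dotProduct,
        ← Matrix.dotProduct_mulVec, had, hdd, Bsym d a, had]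
      funext i
      simp [hc, B]
      field_simp
    have hN3 : (M - 1) ^ 3 = 0 := Matrix.ext_iff_mulVec.2 fun x => by
      rw [pow_succ', hN2, ← Matrix.mulVec_mulVec, Matrix.vecMulVec_mulVec, Matrix.zero_mulVec, op_smul_eq_smul,
        Matrix.mulVec_smul, hN, had, hdd]
      simp
    have hMr : M ^ r = 1 := by
      have h1 : (M - 1) ^ r = 0 := by
        rw [show r = 3 + (r - 3) by omega, pow_add, hN3, zero_mul]
      have h3 := add_pow_char_of_commute r (Commute.one_right (M - 1))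
      rwa [sub_add_cancel, h1, one_pow, zero_add] at h3
    obtain ⟨y, hy⟩ := exists_form_elem (G := G) hMr (fun x x' => by
      change B (M *ᵥ x) (M *ᵥ x') = B x x'
      rw [hMx, hMx]
      simp only [Badd, Baddr, Bsub, Bsubr, Bsmul, Bsmulr, had, hdd, Bsym d a, Bsym x a, Bsym x d]
      rw [hc]
      field_simp
      ring)
    have hp : y.1.1 ^ r = 1 := by rw [hy]; exact hMr
    have hk : (y.1.1 - 1) ^ 2 = vecMulVec d ((-(2 * c)) • (d ᵥ* G)) := by rw [hy]; exact hN2
    refine map_line hb hp hp (h y) hk hk ?_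
    refine smul_ne_zero ?_ fun h0 => hd0 (Matrix.eq_zero_of_vecMul_eq_zero hG h0)
    rw [hc, mul_div_cancel₀ _ h2]
    exact neg_ne_zero.2 haa
  -- a hyperbolic pair
  let Q : QuadraticForm F₀ (Fin n → F₀) := LinearMap.BilinMap.toQuadraticMap (Matrix.toBilin' G)
  have hQ : ∀ x, Q x = B x x := fun x => Matrix.toBilin'_apply' G x x
  obtain ⟨d, -, hd0, hd⟩ := CfsgLib.Forms.exists_singular Q ⊤ (by
    rw [finrank_top, Module.finrank_fin_fun]; exact hn)
  rw [hQ] at hd
  obtain ⟨f₀, hf₀⟩ : ∃ y, B d y ≠ 0 := by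
    by_contra hno
    push Not at hno
    exact hd0 (Bnd d hno)
  set f₁ := (B d f₀)⁻¹ • f₀ with hf₁
  have hdf₁ : B d f₁ = 1 := by rw [hf₁, Bsmulr, inv_mul_cancel₀ hf₀]
  clear_value f₁
  set f := f₁ - (B f₁ f₁ / 2) • d with hfdef
  have hdf : B d f = 1 := by rw [hfdef, Bsubr, Bsmulr, hd, hdf₁]; ring
  have hff : B f f = 0 := by
    rw [hfdef]
    simp only [Bsub, Bsubr, Bsmul, Bsmulr, hd, hdf₁, Bsym f₁ d]
    field_simp
    ring
  have hfd : B f d = 1 := by rw [Bsym]; exact hdf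
  have hf0 : f ≠ 0 := fun h0 => by
    rw [h0, show B d 0 = 0 by simp [B]] at hdf; exact zero_ne_one hdf
  clear_value f
  let P : (Fin n → F₀) → (Fin n → F₀) := fun x => x - B x f • d - B x d • f
  have hPd : ∀ x, B (P x) d = 0 := fun x => by simp only [P, Bsub, Bsmul, hd, hfd]; ring
  have hPf : ∀ x, B (P x) f = 0 := fun x => by simp only [P, Bsub, Bsmul, hff, hdf]; ring
  obtain ⟨z, hz, hzd, hzf⟩ : ∃ z, B z z ≠ 0 ∧ B z d = 0 ∧ B z f = 0 := by
    by_contra hno
    push Not at hno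
    have hzero : ∀ x, B (P x) (P x) = 0 := fun x => by
      by_contra hne
      exact hno (P x) hne (hPd x) (hPf x)
    have hP0 : ∀ x, P x = 0 := fun x => Bnd _ fun y => by
      have h1 : B (P x) y = B (P x) (P y) := by
        conv_rhs => rw [show P y = y - B y f • d - B y d • f from rfl, Bsubr, Bsubr, Bsmulr, Bsmulr, hPd, hPf]
        ring
      have h3 := hzero (x + y)
      have e : P (x + y) = P x + P y := by
        simp only [P, Badd, add_smul]; abel
      rw [e, Badd, Baddr, Baddr, hzero, hzero, Bsym (P y) (P x)] at h3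
      have h4 : 2 * B (P x) (P y) = 0 := by linear_combination h3
      rw [h1]; exact (mul_eq_zero.1 h4).resolve_left h2
    have hspan : (⊤ : Submodule F₀ (Fin n → F₀)) ≤ Submodule.span F₀ ↑({d, f} : Finset (Fin n → F₀)) := by
      intro x _
      rw [show x = B x f • d + B x d • f by
        have := hP0 x
        simp only [P, sub_sub, sub_eq_zero] at this
        exact this]
      exact Submodule.add_mem _ (Submodule.smul_mem _ _ (Submodule.subset_span (by simp)))
        (Submodule.smul_mem _ _ (Submodule.subset_span (by simp)))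
    have := (Submodule.finrank_mono hspan).trans
      ((finrank_span_finset_le_card ({d, f} : Finset (Fin n → F₀))).trans Finset.card_le_two)
    rw [finrank_top, Module.finrank_fin_fun] at this
    omega
  obtain ⟨α, hα⟩ := hline d z hd0 hd hzd hz
  obtain ⟨α', hα'⟩ := hline f z hf0 hff hzf hz
  have pair : ∀ u v : Fin n → F₀, (ι ∘ u) ⬝ᵥ (ι ∘ (G *ᵥ v)) = ι (B u v) := fun u v =>
    (RingHom.map_dotProduct ι u (G *ᵥ v)).symm
  -- every anisotropic vector orthogonal to the pair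
  have hW : ∀ z : Fin n → F₀, B z z ≠ 0 → B z d = 0 → B z f = 0 → b *ᵥ (ρ ∘ z) = α • (ι ∘ z) ∧
      ρ (B z z / 2) * α' = α * ι (B z z / 2) := by
    intro z hz hzd hzf
    set a := B z z / 2 with ha
    have ha0 : a ≠ 0 := div_ne_zero hz h2
    have hdz : B d z = 0 := by rw [Bsym]; exact hzd
    have hfz : B f z = 0 := by rw [Bsym]; exact hzf
    have hanis : B (d + (1 : F₀) • f) (d + (1 : F₀) • f) ≠ 0 := by
      simp only [Badd, Baddr, Bsmul, Bsmulr, hd, hdf, hfd, hff]; simpa [← two_mul] using h2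
    have hsing : ∀ e : F₀, e * e = 1 → ∃ β : F,
        b *ᵥ (ρ ∘ d) + ρ e • (b *ᵥ (ρ ∘ z)) - ρ a • (b *ᵥ (ρ ∘ f)) =
          β • (ι ∘ d) + (β * ι e) • (ι ∘ z) - (β * ι a) • (ι ∘ f) := by
      intro e he
      set v := d + e • z - a • f with hv
      have hvd : B v d = -a := by rw [hv]; simp only [Badd, Bsub, Bsmul, hd, hzd, hfd]; ring
      have hv0 : v ≠ 0 := fun h0 => ha0 (by
        rw [h0, show B 0 d = 0 by simp [B]] at hvd; linear_combination hvd)
      have hvv : B v v = 0 := by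
        rw [hv]; simp only [Badd, Baddr, Bsub, Bsubr, Bsmul, Bsmulr, hd, hzd, hzf, hdz, hfz, hdf, hfd, hff, ha]
        field_simp
        linear_combination (4 * B z z) * he
      -- an anisotropic vector orthogonal to `v`
      set w := z - (e * B z z) • f with hw
      have hwv : B w v = 0 := by
        rw [hw, hv]; simp only [Baddr, Bsub, Bsubr, Bsmul, Bsmulr, hzd, hzf, hfz, hfd, hff]; ring
      have hww : B w w ≠ 0 := by
        rw [hw]; simp only [Bsub, Bsubr, Bsmul, Bsmulr, hzf, hfz, hff]; simpa using hz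
      obtain ⟨β, hβ⟩ := hline v w hv0 hvv hwv hww
      rw [hv, semi_sub, semi_add, semi_smul, semi_smul] at hβ
      refine ⟨β, hβ.trans ?_⟩
      funext i
      simp [map_add, map_sub, map_mul]
      ring
    obtain ⟨β, hβ⟩ := hsing 1 (by ring)
    obtain ⟨γ, hγ⟩ := hsing (-1) (by ring)
    rw [hα, hα', map_one, map_one, one_smul, mul_one] at hβ
    rw [hα, hα', map_neg, map_neg, map_one, map_one, neg_one_smul, mul_neg_one] at hγ
    have hsum := congrArg₂ (· + ·) hβ hγ
    have pz := congrArg (· ⬝ᵥ (ι ∘ (G *ᵥ z))) hsum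
    have pf := congrArg (· ⬝ᵥ (ι ∘ (G *ᵥ f))) hsum
    have pd := congrArg (· ⬝ᵥ (ι ∘ (G *ᵥ d))) hsum
    simp only [add_dotProduct, sub_dotProduct, smul_dotProduct, neg_dotProduct, pair, hd, hdz, hfz, hdf, hfd, hff, hzd, hzf,
      map_zero, map_one, smul_eq_mul] at pz pf pd
    have h2F : (2 : F) ≠ 0 := by
      intro h0; apply h2; apply ι.injective; rw [map_ofNat, map_zero]; exact h0
    have hιz : ι (B z z) ≠ 0 := (map_ne_zero ι).2 hz
    have eβ : β = γ := sub_eq_zero.1 ((mul_eq_zero.1 (show (β - γ) * ι (B z z) = 0 by linear_combination -pz)).resolve_right hιz)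
    subst eβ
    have eα : α = β := mul_left_cancel₀ h2F (by linear_combination pf)
    subst eα
    refine ⟨funext fun i => ?_, mul_left_cancel₀ h2F (by linear_combination -pd)⟩
    have h1 := congrFun hβ i
    have h3 := congrFun hγ i
    simp only [Pi.add_apply, Pi.sub_apply, Pi.smul_apply, Pi.neg_apply, smul_eq_mul] at h1 h3 ⊢
    refine mul_left_cancel₀ h2F ?_
    linear_combination h1 - h3
  have hαne : α ≠ 0 := by
    rintro rfl
    rw [zero_smul] at hα
    exact hd0 (funext fun i => ρ.injective ((congrFun (Matrix.eq_zero_of_mulVec_eq_zero hb hα) i).trans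
      (map_zero ρ).symm))
  have hz0 : z ≠ 0 := fun h0 => hz (by rw [h0]; simp [B])
  have hρ : ρ = ι := RingHom.ext fun m => by
    rcases eq_or_ne m 0 with rfl | hm
    · rw [map_zero, map_zero]
    have h1 := (hW z hz hzd hzf).1
    have h3 := (hW (m • z) (by rw [Bsmul, Bsmulr]; exact mul_ne_zero hm (mul_ne_zero hm hz))
      (by rw [Bsmul, hzd, mul_zero]) (by rw [Bsmul, hzf, mul_zero])).1
    rw [semi_smul, h1] at h3
    obtain ⟨i, hi⟩ : ∃ i, z i ≠ 0 := by
      by_contra hno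
      push Not at hno
      exact hz0 (funext hno)
    have h4 := congrFun h3 i
    simp only [Pi.smul_apply, Function.comp_apply, smul_eq_mul, map_mul] at h4
    exact mul_right_cancel₀ (mul_ne_zero hαne ((map_ne_zero ι).2 hi)) (by linear_combination h4)
  have hα'' : α' = α := by
    have := (hW z hz hzd hzf).2
    rw [hρ, mul_comm] at this
    exact mul_right_cancel₀ ((map_ne_zero ι).2 (div_ne_zero hz h2)) this
  have hWall : ∀ y : Fin n → F₀, B y d = 0 → B y f = 0 → b *ᵥ (ρ ∘ y) = α • (ι ∘ y) := by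
    intro y hyd hyf
    by_cases hy : B y y = 0
    · obtain ⟨t, ht⟩ : ∃ t : F₀, B (y + t • z) (y + t • z) ≠ 0 := by
        by_contra hno
        push Not at hno
        have h1 := hno 1
        have h3 := hno (-1)
        simp only [Badd, Baddr, Bsmul, Bsmulr, hy, Bsym z y] at h1 h3
        exact mul_ne_zero h2 hz (by linear_combination h1 + h3)
      have h1 := (hW (y + t • z) ht (by rw [Badd, Bsmul, hyd, hzd]; ring) (by rw [Badd, Bsmul, hyf, hzf]; ring)).1
      rw [semi_add, semi_smul, (hW z hz hzd hzf).1] at h1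
      have e : ι ∘ (y + t • z) = ι ∘ y + ι t • (ι ∘ z) := funext fun i => by simp [map_add, map_mul]
      rw [e, smul_add, hρ, smul_comm (ι t) α] at h1
      rw [hρ]; exact add_right_cancel h1
    · exact (hW y hy hyd hyf).1
  refine ⟨⟨α, scalar_of_single fun i => ?_⟩, hρ⟩
  set e : Fin n → F₀ := Pi.single i 1 with he
  have he' : Pi.single i (1 : F) = ι ∘ e := by rw [he, comp_single, map_one]
  have hsum : e = P e + B e f • d + B e d • f := by simp only [P]; abel
  have hι : ∀ x : Fin n → F₀, b *ᵥ (ι ∘ x) = b *ᵥ (ρ ∘ x) := fun x => by rw [hρ]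
  rw [he', hι]
  conv_lhs => rw [hsum, semi_add, semi_add, semi_smul, semi_smul, hα, hα', hα'', hWall _ (hPd e) (hPf e)]
  funext k
  conv_rhs => rw [hsum]
  simp [hρ, map_add, map_mul]
  ring

/-- Rigidity for a symmetric or alternating non-degenerate form. -/
theorem scalar_of_formSub [Fintype F₀] (hn : 3 ≤ n) (h2 : (2 : F₀) ≠ 0) (hG : G.det ≠ 0)
    (hGt : Gᵀ = G ∨ Gᵀ = -G) {r : ℕ} [Fact r.Prime] [CharP F r]
    (hb : b.det ≠ 0) (h : ∀ y : formSub G, Semi ρ ι b y.1.1 y.1.1) :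
    (∃ l : F, b = l • (1 : Matrix (Fin n) (Fin n) F)) ∧ ρ = ι := by
  have e : ∀ x y : Fin n → F₀, x ⬝ᵥ (G *ᵥ y) = y ⬝ᵥ (Gᵀ *ᵥ x) := fun x y => by
    rw [Matrix.mulVec_transpose, Matrix.dotProduct_mulVec, dotProduct_comm]
  rcases hGt with hs | hs
  · exact scalar_of_symm hn h2 (fun x y => by rw [e, hs]) hG hb h
  · have hskew : ∀ x y : Fin n → F₀, x ⬝ᵥ (G *ᵥ y) = -(y ⬝ᵥ (G *ᵥ x)) := fun x y => by
      rw [e, hs, Matrix.neg_mulVec, dotProduct_neg]
    refine scalar_of_skew (by omega) hskew (fun x => ?_) hG hb h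
    have := hskew x x
    exact (mul_eq_zero.1 (show 2 * (x ⬝ᵥ (G *ᵥ x)) = 0 by linear_combination this)).resolve_left h2

end CfsgLib.Rigid
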